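import Mathlib

/-!
# The matrices of `M₁₁ < SL₅(3)` (ternary Golay code) and their words in transvections (helper788, S5925, box J)

* `Ax Ay At Afa Afb As : SL₅(3)`: `x^11 = y^5 = t^2 = (x t)^3 = 1`, `y x = x^3 y`, `t y t y = 1`; `fa`, `fb` are the two elements `f` with
  `f^2 = t`, `f y = y^2 f` generating with `x, y, t` a group `M₁₁` (`(x fa)^8 = 1`, `(x fb)^11 = 1`); `s` has order 121, `s^11 = x`;
* `wx wy wt wfa wfb ws` : the words, a letter `(i, j, c)` is the transvection `1 + c e_ij`; `ev` : the value of a word;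
* `it` : inverse transpose, `it_ev : it (ev w) = ev (w.map trl)`, `trl (i, j, c) = (j, i, -c)`.
-/

set_option autoImplicit false
set_option maxRecDepth 10000

namespace Cfsg.Agent.H788.E83

open Matrix

/-- letters -/
abbrev Lt : Type := Fin 5 × Fin 5 × ZMod 3

abbrev SL5 : Type := SpecialLinearGroup (Fin 5) (ZMod 3)

abbrev M5 : Type := Matrix (Fin 5) (Fin 5) (ZMod 3)

/-- the matrix with the base 3 digits of `n` -/
def mm (n : ℕ) : M5 := fun i j => (⟨(n / 3 ^ (5 * (i : ℕ) + j)) % 3, Nat.mod_lt _ (by norm_num)⟩ : Fin 3)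

/-- the transvection of a letter -/
def tv (l : Lt) : SL5 := if h : l.1 ≠ l.2.1 then SpecialLinearGroup.transvection h l.2.2 else 1

/-- the value of a word -/
def ev (w : List Lt) : SL5 := (w.map tv).prod

@[simp] theorem ev_nil : ev [] = 1 := rfl

theorem ev_cons (l : Lt) (w : List Lt) : ev (l :: w) = tv l * ev w := by
  unfold ev; rw [List.map_cons, List.prod_cons]

theorem ev_append (w w' : List Lt) : ev (w ++ w') = ev w * ev w' := by
  unfold ev; rw [List.map_append, List.prod_append]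

theorem tv_val {l : Lt} (h : l.1 ≠ l.2.1) : (tv l).1 = Matrix.transvection l.1 l.2.1 l.2.2 := by
  unfold tv; rw [dif_pos h]; rfl

theorem step {l : Lt} {w : List Lt} {a b : M5} (h : l.1 ≠ l.2.1) (h1 : (ev w).1 = a)
    (h2 : Matrix.transvection l.1 l.2.1 l.2.2 * a = b) : (ev (l :: w)).1 = b := by
  rw [ev_cons]
  show (tv l).1 * (ev w).1 = b
  rw [tv_val h, h1, h2]

/-- transposed letter -/
def trl (l : Lt) : Lt := (l.2.1, l.1, -l.2.2)

/-- inverse transpose -/
def it (K : Type*) [Field K] : SpecialLinearGroup (Fin 5) K →* SpecialLinearGroup (Fin 5) K where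
  toFun A := (A⁻¹).transpose
  map_one' := by
    apply Subtype.ext
    rw [inv_one]
    show (1 : Matrix (Fin 5) (Fin 5) K)ᵀ = 1
    exact Matrix.transpose_one
  map_mul' A B := by
    apply Subtype.ext
    rw [_root_.mul_inv_rev]
    show ((B⁻¹ : SpecialLinearGroup (Fin 5) K).1 * (A⁻¹ : SpecialLinearGroup (Fin 5) K).1)ᵀ =
      (A⁻¹ : SpecialLinearGroup (Fin 5) K).1ᵀ * (B⁻¹ : SpecialLinearGroup (Fin 5) K).1ᵀ
    rw [Matrix.transpose_mul]

theorem it_transvection {K : Type*} [Field K] {i j : Fin 5} (h : i ≠ j) (c : K) :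
    it K (SpecialLinearGroup.transvection h c) = SpecialLinearGroup.transvection h.symm (-c) := by
  have h1 : (SpecialLinearGroup.transvection h c)⁻¹ = SpecialLinearGroup.transvection h (-c) := by
    rw [inv_eq_iff_mul_eq_one]
    apply Subtype.ext
    show Matrix.transvection i j c * Matrix.transvection i j (-c) = 1
    rw [Matrix.transvection_mul_transvection_same _ _ h, add_neg_cancel, Matrix.transvection_zero]
  apply Subtype.ext
  show ((SpecialLinearGroup.transvection h c)⁻¹ : SpecialLinearGroup (Fin 5) K).1ᵀ = Matrix.transvection j i (-c)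
  rw [h1]
  show (Matrix.transvection i j (-c))ᵀ = _
  unfold Matrix.transvection
  rw [Matrix.transpose_add, Matrix.transpose_one, Matrix.transpose_single]

theorem it_tv (l : Lt) : it (ZMod 3) (tv l) = tv (trl l) := by
  unfold tv
  by_cases h : l.1 ≠ l.2.1
  · have h' : (trl l).1 ≠ (trl l).2.1 := fun h1 => h h1.symm
    rw [dif_pos h, dif_pos h', it_transvection]
    rfl
  · have h' : ¬ (trl l).1 ≠ (trl l).2.1 := fun h1 => h fun h2 => h1 h2.symm
    rw [dif_neg h, dif_neg h', map_one]

theorem it_ev (w : List Lt) : it (ZMod 3) (ev w) = ev (w.map trl) := by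
  induction w with
  | nil => rw [ev_nil, map_one, List.map_nil, ev_nil]
  | cons l w ih => rw [ev_cons, map_mul, it_tv, ih, List.map_cons, ev_cons]

/-- the word of `x` -/
def wx : List Lt := [(2, 3, 2), (4, 0, 1), (3, 4, 1), (4, 1, 2), (1, 2, 1), (0, 3, 1), (2, 0, 1), (0, 2, 1), (0, 4, 2)]

def Ax : SL5 := ev wx

theorem vx : (Ax).1 = mm 463215476017 := by
  have h0 : (ev []).1 = mm 282817489141 := by
    rw [ev_nil]; show (1 : M5) = _; decide +kernel
  have h1 := step (l := (0, 4, 2)) (b := mm 282817489303) (by decide) h0 (by decide +kernel)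
  have h2 := step (l := (0, 2, 1)) (b := mm 282817489312) (by decide) h1 (by decide +kernel)
  have h3 := step (l := (2, 0, 1)) (b := mm 282827645740) (by decide) h2 (by decide +kernel)
  have h4 := step (l := (0, 3, 1)) (b := mm 282827645767) (by decide) h3 (by decide +kernel)
  have h5 := step (l := (1, 2, 1)) (b := mm 282827689750) (by decide) h4 (by decide +kernel)
  have h6 := step (l := (4, 1, 2)) (b := mm 624532561048) (by decide) h5 (by decide +kernel)
  have h7 := step (l := (3, 4, 1)) (b := mm 627101015401) (by decide) h6 (by decide +kernel)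
  have h8 := step (l := (4, 0, 1)) (b := mm 463222148554) (by decide) h7 (by decide +kernel)
  have h9 := step (l := (2, 3, 2)) (b := mm 463215476017) (by decide) h8 (by decide +kernel)
  exact h9

/-- the matrix -/
theorem Ax_eq : (Ax).1 = !![1, 0, 1, 1, 2; 1, 1, 2, 0, 2; 2, 1, 1, 2, 0; 2, 2, 1, 1, 2; 0, 2, 2, 1, 1] := by
  rw [vx]; decide +kernel

/-- the word of `y` -/
def wy : List Lt := [(2, 4, 1), (1, 2, 2), (1, 3, 2), (3, 1, 1), (0, 3, 2), (2, 3, 1), (1, 4, 1), (4, 3, 2)]

def Ay : SL5 := ev wy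

theorem vy : (Ay).1 = mm 471926527723 := by
  have h0 : (ev []).1 = mm 282817489141 := by
    rw [ev_nil]; show (1 : M5) = _; decide +kernel
  have h1 := step (l := (4, 3, 2)) (b := mm 471103846795) (by decide) h0 (by decide +kernel)
  have h2 := step (l := (1, 4, 1)) (b := mm 471103879600) (by decide) h1 (by decide +kernel)
  have h3 := step (l := (2, 3, 1)) (b := mm 471105473923) (by decide) h2 (by decide +kernel)
  have h4 := step (l := (0, 3, 2)) (b := mm 471105473977) (by decide) h3 (by decide +kernel)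
  have h5 := step (l := (3, 1, 1)) (b := mm 471923361676) (by decide) h4 (by decide +kernel)
  have h6 := step (l := (1, 3, 2)) (b := mm 471923341264) (by decide) h5 (by decide +kernel)
  have h7 := step (l := (1, 2, 2)) (b := mm 471923339077) (by decide) h6 (by decide +kernel)
  have h8 := step (l := (2, 4, 1)) (b := mm 471926527723) (by decide) h7 (by decide +kernel)
  exact h8

/-- the matrix -/
theorem Ay_eq : (Ay).1 = !![1, 0, 0, 2, 0; 0, 0, 2, 1, 0; 0, 0, 1, 0, 1; 0, 1, 0, 0, 1; 0, 0, 0, 2, 1] := by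
  rw [vy]; decide +kernel

/-- the word of `t` -/
def wt : List Lt := [(1, 2, 2), (4, 1, 2), (3, 1, 1), (0, 1, 2), (1, 2, 2), (1, 3, 1), (3, 1, 1), (1, 3, 1)]

def At : SL5 := ev wt

theorem vt : (At).1 = mm 325304605696 := by
  have h0 : (ev []).1 = mm 282817489141 := by
    rw [ev_nil]; show (1 : M5) = _; decide +kernel
  have h1 := step (l := (1, 3, 1)) (b := mm 282817495702) (by decide) h0 (by decide +kernel)
  have h2 := step (l := (3, 1, 1)) (b := mm 283247962912) (by decide) h1 (by decide +kernel)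
  have h3 := step (l := (1, 3, 1)) (b := mm 283247957080) (by decide) h2 (by decide +kernel)
  have h4 := step (l := (1, 2, 2)) (b := mm 283247961454) (by decide) h3 (by decide +kernel)
  have h5 := step (l := (0, 1, 2)) (b := mm 283247961466) (by decide) h4 (by decide +kernel)
  have h6 := step (l := (3, 1, 1)) (b := mm 283463195071) (by decide) h5 (by decide +kernel)
  have h7 := step (l := (4, 1, 2)) (b := mm 325304607883) (by decide) h6 (by decide +kernel)
  have h8 := step (l := (1, 2, 2)) (b := mm 325304605696) (by decide) h7 (by decide +kernel)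
  exact h8

/-- the matrix -/
theorem At_eq : (At).1 = !![1, 1, 1, 0, 0; 0, 2, 1, 0, 0; 0, 0, 1, 0, 0; 0, 0, 2, 2, 0; 0, 1, 1, 0, 1] := by
  rw [vt]; decide +kernel

/-- the word of `fa` -/
def wfa : List Lt := [(0, 4, 2), (4, 0, 2), (1, 2, 2), (0, 4, 2), (0, 3, 1), (3, 1, 1), (1, 3, 1), (4, 0, 2)]

def Afa : SL5 := ev wfa

theorem vfa : (Afa).1 = mm 680741389034 := by
  have h0 : (ev []).1 = mm 282817489141 := by
    rw [ev_nil]; show (1 : M5) = _; decide +kernel
  have h1 := step (l := (4, 0, 2)) (b := mm 289791057943) (by decide) h0 (by decide +kernel)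
  have h2 := step (l := (1, 3, 1)) (b := mm 289791064504) (by decide) h1 (by decide +kernel)
  have h3 := step (l := (3, 1, 1)) (b := mm 290221531714) (by decide) h2 (by decide +kernel)
  have h4 := step (l := (0, 3, 1)) (b := mm 290221531771) (by decide) h3 (by decide +kernel)
  have h5 := step (l := (0, 4, 2)) (b := mm 290221531934) (by decide) h4 (by decide +kernel)
  have h6 := step (l := (1, 2, 2)) (b := mm 290221536308) (by decide) h5 (by decide +kernel)
  have h7 := step (l := (4, 0, 2)) (b := mm 680741389220) (by decide) h6 (by decide +kernel)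
  have h8 := step (l := (0, 4, 2)) (b := mm 680741389034) (by decide) h7 (by decide +kernel)
  exact h8

/-- the matrix -/
theorem Afa_eq : (Afa).1 = !![2, 2, 0, 1, 0; 0, 1, 2, 1, 0; 0, 0, 1, 0, 0; 0, 1, 0, 2, 0; 0, 2, 0, 1, 2] := by
  rw [vfa]; decide +kernel

/-- the word of `fb` -/
def wfb : List Lt := [(2, 0, 1), (3, 2, 2), (4, 3, 1), (0, 4, 2), (4, 0, 2), (1, 4, 2), (2, 3, 1), (0, 1, 1), (3, 0, 1), (4, 3, 1), (2, 4, 2)]

def Afb : SL5 := ev wfb

theorem vfb : (Afb).1 = mm 493062864479 := by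
  have h0 : (ev []).1 = mm 282817489141 := by
    rw [ev_nil]; show (1 : M5) = _; decide +kernel
  have h1 := step (l := (2, 4, 2)) (b := mm 282827055079) (by decide) h0 (by decide +kernel)
  have h2 := step (l := (4, 3, 1)) (b := mm 376970233906) (by decide) h1 (by decide +kernel)
  have h3 := step (l := (3, 0, 1)) (b := mm 376984582813) (by decide) h2 (by decide +kernel)
  have h4 := step (l := (0, 1, 1)) (b := mm 376984582816) (by decide) h3 (by decide +kernel)
  have h5 := step (l := (2, 3, 1)) (b := mm 376986236188) (by decide) h4 (by decide +kernel)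
  have h6 := step (l := (1, 4, 2)) (b := mm 376986288676) (by decide) h5 (by decide +kernel)
  have h7 := step (l := (4, 0, 2)) (b := mm 404880563884) (by decide) h6 (by decide +kernel)
  have h8 := step (l := (0, 4, 2)) (b := mm 404880564104) (by decide) h7 (by decide +kernel)
  have h9 := step (l := (4, 3, 1)) (b := mm 492050174129) (by decide) h8 (by decide +kernel)
  have h10 := step (l := (3, 2, 2)) (b := mm 493068946526) (by decide) h9 (by decide +kernel)
  have h11 := step (l := (2, 0, 1)) (b := mm 493062864479) (by decide) h10 (by decide +kernel)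
  exact h11

/-- the matrix -/
theorem Afb_eq : (Afb).1 = !![2, 2, 0, 2, 2; 0, 1, 0, 2, 2; 0, 2, 1, 0, 1; 0, 0, 2, 0, 1; 0, 2, 0, 2, 1] := by
  rw [vfb]; decide +kernel

/-- the word of `s` -/
def ws : List Lt := [(3, 4, 1), (2, 3, 1), (1, 2, 1), (0, 1, 1), (3, 0, 1), (4, 0, 2), (1, 0, 1), (2, 0, 2)]

def As : SL5 := ev ws

theorem vs : (As).1 = mm 290954915924 := by
  have h0 : (ev []).1 = mm 282817489141 := by
    rw [ev_nil]; show (1 : M5) = _; decide +kernel
  have h1 := step (l := (2, 0, 2)) (b := mm 282817607239) (by decide) h0 (by decide +kernel)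
  have h2 := step (l := (1, 0, 1)) (b := mm 282817607482) (by decide) h1 (by decide +kernel)
  have h3 := step (l := (4, 0, 2)) (b := mm 289791176284) (by decide) h2 (by decide +kernel)
  have h4 := step (l := (3, 0, 1)) (b := mm 289805525191) (by decide) h3 (by decide +kernel)
  have h5 := step (l := (0, 1, 1)) (b := mm 289805525195) (by decide) h4 (by decide +kernel)
  have h6 := step (l := (1, 2, 1)) (b := mm 289805527139) (by decide) h5 (by decide +kernel)
  have h7 := step (l := (2, 3, 1)) (b := mm 289807003364) (by decide) h6 (by decide +kernel)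
  have h8 := step (l := (3, 4, 1)) (b := mm 290954915924) (by decide) h7 (by decide +kernel)
  exact h8

/-- the matrix -/
theorem As_eq : (As).1 = !![2, 1, 0, 0, 0; 0, 1, 1, 0, 0; 0, 0, 1, 1, 0; 0, 0, 0, 1, 1; 2, 0, 0, 0, 1] := by
  rw [vs]; decide +kernel

theorem mk {A B : SL5} {a b c : ℕ} (hA : A.1 = mm a) (hB : B.1 = mm b) (h : mm a * mm b = mm c) : (A * B).1 = mm c := by
  show A.1 * B.1 = mm c
  rw [hA, hB, h]

theorem mm_inj {A B : SL5} {a : ℕ} (hA : A.1 = mm a) (hB : B.1 = mm a) : A = B := Subtype.ext (hA.trans hB.symm)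

theorem v1 : (1 : SL5).1 = mm 282817489141 := by
  show (1 : M5) = _; decide +kernel

theorem vx2 : (Ax * Ax).1 = mm 310745251706 := mk vx vx (by decide +kernel)

theorem vx3 : (Ax * Ax * Ax).1 = mm 76814626535 := mk vx2 vx (by decide +kernel)

theorem vx5 : (Ax * Ax * Ax * (Ax * Ax)).1 = mm 687835257069 := mk vx3 vx2 (by decide +kernel)

theorem vx10 : (Ax * Ax * Ax * (Ax * Ax) * (Ax * Ax * Ax * (Ax * Ax))).1 = mm 302603055089 := mk vx5 vx5 (by decide +kernel)

theorem vx11 : (Ax * Ax * Ax * (Ax * Ax) * (Ax * Ax * Ax * (Ax * Ax)) * Ax).1 = mm 282817489141 := mk vx10 vx (by decide +kernel)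

theorem x_pow : Ax ^ 11 = 1 := by
  have h := mm_inj vx11 v1
  calc Ax ^ 11 = Ax * Ax * Ax * (Ax * Ax) * (Ax * Ax * Ax * (Ax * Ax)) * Ax := by
        simp only [pow_succ, pow_zero, one_mul, mul_assoc]
    _ = 1 := h

theorem x_ne : Ax ≠ 1 := by
  intro h
  have h1 := vx.symm.trans ((congrArg Subtype.val h).trans v1)
  exact absurd h1 (by decide +kernel)

theorem vy2 : (Ay * Ay).1 = mm 210640897204 := mk vy vy (by decide +kernel)

theorem vy4 : (Ay * Ay * (Ay * Ay)).1 = mm 650054586085 := mk vy2 vy2 (by decide +kernel)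

theorem vy5 : (Ay * Ay * (Ay * Ay) * Ay).1 = mm 282817489141 := mk vy4 vy (by decide +kernel)

theorem y_pow : Ay ^ 5 = 1 := by
  have h := mm_inj vy5 v1
  calc Ay ^ 5 = Ay * Ay * (Ay * Ay) * Ay := by simp only [pow_succ, pow_zero, one_mul, mul_assoc]
    _ = 1 := h

theorem y_ne : Ay ≠ 1 := by
  intro h
  have h1 := vy.symm.trans ((congrArg Subtype.val h).trans v1)
  exact absurd h1 (by decide +kernel)

theorem vyx : (Ay * Ax).1 = mm 600262780820 := mk vy vx (by decide +kernel)

theorem vx3y : (Ax * Ax * Ax * Ay).1 = mm 600262780820 := mk vx3 vy (by decide +kernel)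

theorem y_x : Ay * Ax = Ax ^ 3 * Ay := by
  have h := mm_inj vyx vx3y
  rw [h]; simp only [pow_succ, pow_zero, one_mul]

theorem y_x' : Ay * Ax * Ay⁻¹ = Ax ^ 3 := by rw [y_x, mul_inv_cancel_right]

theorem vt2 : (At * At).1 = mm 282817489141 := mk vt vt (by decide +kernel)

theorem vty : (At * Ay).1 = mm 566371059868 := mk vt vy (by decide +kernel)

theorem vtyt : (At * Ay * At).1 = mm 650054586085 := mk vty vt (by decide +kernel)

theorem vtyty : (At * Ay * At * Ay).1 = mm 282817489141 := mk vtyt vy (by decide +kernel)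

theorem t_sq : At * At = 1 := mm_inj vt2 v1

theorem t_pow : At ^ 2 = 1 := by rw [pow_two, t_sq]

theorem t_y : At * Ay * At * Ay = 1 := mm_inj vtyty v1

theorem t_y' : At * Ay * At = Ay⁻¹ := eq_inv_of_mul_eq_one_left t_y

theorem vxt : (Ax * At).1 = mm 526234809052 := mk vx vt (by decide +kernel)

theorem vxt2 : (Ax * At * (Ax * At)).1 = mm 124662286547 := mk vxt vxt (by decide +kernel)

theorem vxt3 : (Ax * At * (Ax * At) * (Ax * At)).1 = mm 282817489141 := mk vxt2 vxt (by decide +kernel)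

theorem x_t : (Ax * At) ^ 3 = 1 := by
  have h := mm_inj vxt3 v1
  calc (Ax * At) ^ 3 = Ax * At * (Ax * At) * (Ax * At) := by simp only [pow_succ, pow_zero, one_mul]
    _ = 1 := h

theorem vfa2 : (Afa * Afa).1 = mm 325304605696 := mk vfa vfa (by decide +kernel)

theorem vfay : (Afa * Ay).1 = mm 44903053985 := mk vfa vy (by decide +kernel)

theorem vy2fa : (Ay * Ay * Afa).1 = mm 44903053985 := mk vy2 vfa (by decide +kernel)

theorem vxfa : (Ax * Afa).1 = mm 776363822456 := mk vx vfa (by decide +kernel)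

theorem vxfa2 : (Ax * Afa * (Ax * Afa)).1 = mm 670858477275 := mk vxfa vxfa (by decide +kernel)

theorem vxfa4 : (Ax * Afa * (Ax * Afa) * (Ax * Afa * (Ax * Afa))).1 = mm 565682275993 := mk vxfa2 vxfa2 (by decide +kernel)

theorem vxfa8 : (Ax * Afa * (Ax * Afa) * (Ax * Afa * (Ax * Afa)) * (Ax * Afa * (Ax * Afa) * (Ax * Afa * (Ax * Afa)))).1 = mm 282817489141 := mk vxfa4 vxfa4 (by decide +kernel)

theorem fa_sq : Afa * Afa = At := mm_inj vfa2 vt

theorem fa_pow : Afa ^ 2 = At := by rw [pow_two, fa_sq]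

theorem fa_y : Afa * Ay = Ay ^ 2 * Afa := by
  have h := mm_inj vfay vy2fa
  rw [h, pow_two]

theorem fa_y' : Afa * Ay * Afa⁻¹ = Ay ^ 2 := by rw [fa_y, mul_inv_cancel_right]

theorem x_fa : (Ax * Afa) ^ 8 = 1 := by
  have h := mm_inj vxfa8 v1
  generalize Ax * Afa = g at h
  calc g ^ 8 = g * g * (g * g) * (g * g * (g * g)) := by simp only [pow_succ, pow_zero, one_mul, mul_assoc]
    _ = 1 := h

theorem vfb2 : (Afb * Afb).1 = mm 325304605696 := mk vfb vfb (by decide +kernel)

theorem vfby : (Afb * Ay).1 = mm 147490328051 := mk vfb vy (by decide +kernel)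

theorem vy2fb : (Ay * Ay * Afb).1 = mm 147490328051 := mk vy2 vfb (by decide +kernel)

theorem vxfb : (Ax * Afb).1 = mm 617176545776 := mk vx vfb (by decide +kernel)

theorem vxfb2 : (Ax * Afb * (Ax * Afb)).1 = mm 728865535346 := mk vxfb vxfb (by decide +kernel)

theorem vxfb4 : (Ax * Afb * (Ax * Afb) * (Ax * Afb * (Ax * Afb))).1 = mm 474828499634 := mk vxfb2 vxfb2 (by decide +kernel)

theorem vxfb8 : (Ax * Afb * (Ax * Afb) * (Ax * Afb * (Ax * Afb)) * (Ax * Afb * (Ax * Afb) * (Ax * Afb * (Ax * Afb)))).1 = mm 845694496785 := mk vxfb4 vxfb4 (by decide +kernel)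

theorem fb_sq : Afb * Afb = At := mm_inj vfb2 vt

theorem fb_pow : Afb ^ 2 = At := by rw [pow_two, fb_sq]

theorem fb_y : Afb * Ay = Ay ^ 2 * Afb := by
  have h := mm_inj vfby vy2fb
  rw [h, pow_two]

theorem fb_y' : Afb * Ay * Afb⁻¹ = Ay ^ 2 := by rw [fb_y, mul_inv_cancel_right]

theorem vxfb10 : (Ax * Afb * (Ax * Afb) * (Ax * Afb * (Ax * Afb)) * (Ax * Afb * (Ax * Afb) * (Ax * Afb * (Ax * Afb))) * (Ax * Afb * (Ax * Afb))).1 = mm 724075739649 := mk vxfb8 vxfb2 (by decide +kernel)

theorem vxfb11 : (Ax * Afb * (Ax * Afb) * (Ax * Afb * (Ax * Afb)) * (Ax * Afb * (Ax * Afb) * (Ax * Afb * (Ax * Afb))) * (Ax * Afb * (Ax * Afb)) * (Ax * Afb)).1 = mm 282817489141 := mk vxfb10 vxfb (by decide +kernel)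

theorem x_fb : (Ax * Afb) ^ 11 = 1 := by
  have h := mm_inj vxfb11 v1
  generalize Ax * Afb = g at h
  calc g ^ 11 = g * g * (g * g) * (g * g * (g * g)) * (g * g) * g := by
        simp only [pow_succ, pow_zero, one_mul, mul_assoc]
    _ = 1 := h

theorem vs2 : (As * As).1 = mm 306099398854 := mk vs vs (by decide +kernel)

theorem vs3 : (As * As * As).1 = mm 373588812644 := mk vs2 vs (by decide +kernel)

theorem vs5 : (As * As * As * (As * As)).1 = mm 82629126886 := mk vs3 vs2 (by decide +kernel)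

theorem vs10 : (As * As * As * (As * As) * (As * As * As * (As * As))).1 = mm 117554425938 := mk vs5 vs5 (by decide +kernel)

theorem vs11 : (As * As * As * (As * As) * (As * As * As * (As * As)) * As).1 = mm 463215476017 := mk vs10 vs (by decide +kernel)

theorem vys : (Ay * As).1 = mm 196630123730 := mk vy vs (by decide +kernel)

theorem vs3y : (As * As * As * Ay).1 = mm 196630123730 := mk vs3 vy (by decide +kernel)

theorem s_pow : As ^ 11 = Ax := by
  have h := mm_inj vs11 vx
  calc As ^ 11 = As * As * As * (As * As) * (As * As * As * (As * As)) * As := by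
        simp only [pow_succ, pow_zero, one_mul, mul_assoc]
    _ = Ax := h

theorem s_y : Ay * As = As ^ 3 * Ay := by
  have h := mm_inj vys vs3y
  rw [h]; simp only [pow_succ, pow_zero, one_mul]

theorem s_y' : Ay * As * Ay⁻¹ = As ^ 3 := by rw [s_y, mul_inv_cancel_right]

theorem s_pow' : As ^ 121 = 1 := by
  rw [show 121 = 11 * 11 by norm_num, pow_mul, s_pow, x_pow]

theorem s_comm : As * Ax = Ax * As := by rw [← s_pow, ← pow_succ, ← pow_succ']

theorem order_x : orderOf Ax = 11 := by
  have h : Fact (Nat.Prime 11) := ⟨by norm_num⟩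
  exact orderOf_eq_prime x_pow x_ne

theorem order_y : orderOf Ay = 5 := by
  have h : Fact (Nat.Prime 5) := ⟨by norm_num⟩
  exact orderOf_eq_prime y_pow y_ne

theorem order_s : orderOf As = 121 := by
  have h : Fact (Nat.Prime 11) := ⟨by norm_num⟩
  have h1 := orderOf_eq_prime_pow (p := 11) (n := 1) (x := As) (by rw [pow_one, s_pow]; exact x_ne) s_pow'
  exact h1

theorem vxtx : (Ax * At * (Ax * Ax * Ax * (Ax * Ax) * (Ax * Ax * Ax * (Ax * Ax)))).1 = mm 537240249749 := mk vxt vx10 (by decide +kernel)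

theorem vfba : (Afb * (Ax * At * (Ax * Ax * Ax * (Ax * Ax) * (Ax * Ax * Ax * (Ax * Ax))))).1 = mm 671054486846 := mk vfb vxtx (by decide +kernel)

theorem vr1 : (Ay * (Ax * At * (Ax * Ax * Ax * (Ax * Ax) * (Ax * Ax * Ax * (Ax * Ax))))).1 = mm 471079944883 := mk vy vxtx (by decide +kernel)

theorem vr2 : (Ay * (Ax * At * (Ax * Ax * Ax * (Ax * Ax) * (Ax * Ax * Ax * (Ax * Ax)))) * At).1 = mm 450159941956 := mk vr1 vt (by decide +kernel)

theorem vr3 : (Ay * (Ax * At * (Ax * Ax * Ax * (Ax * Ax) * (Ax * Ax * Ax * (Ax * Ax)))) * At * (Ay * Ay)).1 = mm 564921829495 := mk vr2 vy2 (by decide +kernel)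

theorem vr4 : (Ay * (Ax * At * (Ax * Ax * Ax * (Ax * Ax) * (Ax * Ax * Ax * (Ax * Ax)))) * At * (Ay * Ay) * Afb).1 = mm 671054486846 := mk vr3 vfb (by decide +kernel)

/-- `f a f⁻¹ = y a t y²` for `a = x t x⁻¹` -/
theorem fb_a : Afb * (Ax * At * Ax⁻¹) * Afb⁻¹ = Ay * (Ax * At * Ax⁻¹) * At * Ay ^ 2 := by
  have h10 : Ax⁻¹ = Ax * Ax * Ax * (Ax * Ax) * (Ax * Ax * Ax * (Ax * Ax)) := by
    rw [inv_eq_iff_mul_eq_one]
    calc _ = Ax ^ 11 := by simp only [pow_succ, pow_zero, one_mul, mul_assoc]
      _ = 1 := x_pow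
  have h := mm_inj vfba vr4
  rw [← h10] at h
  rw [h, mul_inv_cancel_right, pow_two]

end Cfsg.Agent.H788.E83
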